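import Cfsg.Agent.Lib.Ore2An.Refl

/-!
# Even permutations as commutators with two 2-cycles

Every nonidentity even permutation `g` of at least five points is a commutator of even
permutations `a`, `b` where `b` has two 2-cycles.
-/

set_option autoImplicit false

namespace Cfsg.Agent.Lib.Ore2An.Fact

open Equiv Equiv.Perm Finset
open Cfsg.Agent.Lib.Ore2An.Refl

set_option linter.unusedSectionVars false

variable {α : Type*} [Fintype α] [DecidableEq α]

theorem disjoint_of_support_subset {f g f' g' : Perm α} (hd : Disjoint f g)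
    (h1 : f'.support ⊆ f.support) (h2 : g'.support ⊆ g.support) : Disjoint f' g' := by
  rw [disjoint_iff_disjoint_support] at hd ⊢
  exact Finset.disjoint_of_subset_left h1 (Finset.disjoint_of_subset_right h2 hd)

/-- Factorization of `g` as a product of two involutions. -/
theorem exists_involutions (g : Perm α) :
    ∃ x y : Perm α, x * y = g ∧ x * x = 1 ∧ y * y = 1 ∧
      x.support ⊆ g.support ∧ y.support ⊆ g.support ∧
      (g ≠ 1 → ∃ a, a ∈ y.support ∧ a ∉ x.support) ∧
      (sign g = 1 → #x.support = #y.support) ∧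
      (sign g = -1 → #y.support = #x.support + 2) := by
  induction g using cycle_induction_on with
  | base_one =>
    refine ⟨1, 1, by simp, by simp, by simp, by simp, by simp, by simp, by simp, by simp⟩
  | base_cycles c hc =>
    obtain ⟨x, y, h1, h2, h3, h4, h5, h6, h7, h8⟩ := exists_reflection hc
    exact ⟨x, y, h1, h2, h3, h4, h5, fun _ => h6, h7, h8⟩
  | induction_disjoint σ τ hd hσ hP hQ =>
    obtain ⟨x₁, y₁, h1, h2, h3, h4, h5, h6, h7, h8⟩ := hP
    obtain ⟨x₂, y₂, k1, k2, k3, k4, k5, k6, k7, k8⟩ := hQ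
    have hσ1 : σ ≠ 1 := hσ.ne_one
    -- a general combination step
    have comb : ∀ x y : Perm α, x * y = σ → x * x = 1 → y * y = 1 → x.support ⊆ σ.support →
        y.support ⊆ σ.support →
        (x * x₂) * (y * y₂) = σ * τ ∧ (x * x₂) * (x * x₂) = 1 ∧ (y * y₂) * (y * y₂) = 1 ∧
        (x * x₂).support ⊆ (σ * τ).support ∧ (y * y₂).support ⊆ (σ * τ).support ∧
        #(x * x₂).support = #x.support + #x₂.support ∧
        #(y * y₂).support = #y.support + #y₂.support ∧
        (∀ a, a ∈ y.support → a ∉ x.support → a ∈ (y * y₂).support ∧ a ∉ (x * x₂).support) ∧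
        (∀ a, a ∈ y₂.support → a ∉ x₂.support → a ∈ (y * y₂).support ∧ a ∉ (x * x₂).support) := by
      intro x y e1 e2 e3 e4 e5
      have dxx : Disjoint x x₂ := disjoint_of_support_subset hd e4 k4
      have dyy : Disjoint y y₂ := disjoint_of_support_subset hd e5 k5
      have dyx : Disjoint y x₂ := disjoint_of_support_subset hd e5 k4
      have dsup : ∀ f g : Perm α, f.support ⊆ σ.support → g.support ⊆ τ.support →
          (f * g).support ⊆ (σ * τ).support := by
        intro f g hf hg
        rw [hd.support_mul]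
        refine (support_mul_le f g).trans ?_
        exact Finset.union_subset_union hf hg
      refine ⟨?_, ?_, ?_, dsup _ _ e4 k4, dsup _ _ e5 k5, dxx.card_support_mul,
        dyy.card_support_mul, ?_, ?_⟩
      · calc (x * x₂) * (y * y₂) = x * (x₂ * y) * y₂ := by group
          _ = x * (y * x₂) * y₂ := by rw [dyx.commute.eq]
          _ = (x * y) * (x₂ * y₂) := by group
          _ = σ * τ := by rw [e1, k1]
      · calc (x * x₂) * (x * x₂) = x * (x₂ * x) * x₂ := by group
          _ = x * (x * x₂) * x₂ := by rw [dxx.commute.eq]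
          _ = (x * x) * (x₂ * x₂) := by group
          _ = 1 := by rw [e2, k2, one_mul]
      · calc (y * y₂) * (y * y₂) = y * (y₂ * y) * y₂ := by group
          _ = y * (y * y₂) * y₂ := by rw [dyy.commute.eq]
          _ = (y * y) * (y₂ * y₂) := by group
          _ = 1 := by rw [e3, k3, one_mul]
      · intro a ha hb
        rw [dyy.support_mul, dxx.support_mul]
        refine ⟨mem_union_left _ ha, fun h => ?_⟩
        rcases mem_union.1 h with h | h
        · exact hb h
        · have := disjoint_iff_disjoint_support.1 hd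
          exact (Finset.disjoint_left.1 this) (e5 ha) (k4 h)
      · intro a ha hb
        rw [dyy.support_mul, dxx.support_mul]
        refine ⟨mem_union_right _ ha, fun h => ?_⟩
        rcases mem_union.1 h with h | h
        · have := disjoint_iff_disjoint_support.1 hd
          exact (Finset.disjoint_right.1 this) (k5 ha) (e4 h)
        · exact hb h
    rcases Int.units_eq_one_or (sign σ) with hs | hs
    · -- `σ` is even
      obtain ⟨e1, e2, e3, e4, e5, e6, e7, e8, -⟩ := comb x₁ y₁ h1 h2 h3 h4 h5
      refine ⟨x₁ * x₂, y₁ * y₂, e1, e2, e3, e4, e5, ?_, ?_, ?_⟩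
      · intro _
        obtain ⟨a, ha, hb⟩ := h6 hσ1
        exact ⟨a, e8 a ha hb⟩
      · intro h
        rw [map_mul, hs, one_mul] at h
        rw [e6, e7, h7 hs, k7 h]
      · intro h
        rw [map_mul, hs, one_mul] at h
        rw [e6, e7, h7 hs, k8 h]; omega
    · rcases Int.units_eq_one_or (sign τ) with ht | ht
      · -- `σ` odd, `τ` even
        obtain ⟨e1, e2, e3, e4, e5, e6, e7, e8, -⟩ := comb x₁ y₁ h1 h2 h3 h4 h5
        refine ⟨x₁ * x₂, y₁ * y₂, e1, e2, e3, e4, e5, ?_, ?_, ?_⟩
        · intro _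
          obtain ⟨a, ha, hb⟩ := h6 hσ1
          exact ⟨a, e8 a ha hb⟩
        · intro h
          rw [map_mul, hs, ht] at h
          exact absurd h (by decide)
        · intro _
          rw [e6, e7, h8 hs, k7 ht]; omega
      · -- both odd: swap the factorization of `σ`
        have hx₁inv : x₁⁻¹ = x₁ := inv_eq_of_mul_eq_one_left h2
        have hx' : σ * x₁ = x₁ * y₁ * x₁⁻¹ := by rw [← h1, hx₁inv]
        have f1 : (σ * x₁) * x₁ = σ := by rw [mul_assoc, h2, mul_one]
        have f2 : (σ * x₁) * (σ * x₁) = 1 := by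
          rw [hx']
          calc x₁ * y₁ * x₁⁻¹ * (x₁ * y₁ * x₁⁻¹) = x₁ * (y₁ * y₁) * x₁⁻¹ := by group
            _ = 1 := by rw [h3]; group
        have f3 : (σ * x₁).support ⊆ σ.support := by
          refine (support_mul_le σ x₁).trans ?_
          exact Finset.union_subset (Subset.refl _) h4
        have f4 : #(σ * x₁).support = #y₁.support := by
          rw [hx']; exact card_support_conj
        obtain ⟨e1, e2, e3, e4, e5, e6, e7, -, e9⟩ := comb (σ * x₁) x₁ f1 f2 h2 f3 h4
        refine ⟨(σ * x₁) * x₂, x₁ * y₂, e1, e2, e3, e4, e5, ?_, ?_, ?_⟩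
        · intro _
          have hτ1 : τ ≠ 1 := by
            rintro rfl
            rw [map_one] at ht
            exact absurd ht (by decide)
          obtain ⟨a, ha, hb⟩ := k6 hτ1
          exact ⟨a, e9 a ha hb⟩
        · intro _
          rw [e6, e7, f4, h8 hs, k8 ht]; omega
        · intro h
          rw [map_mul, hs, ht] at h
          exact absurd h (by decide)

theorem cycleType_of_involution {x : Perm α} (hx : x * x = 1) :
    x.cycleType = Multiset.replicate (#x.support / 2) 2 := by
  have h2 : ∀ n ∈ x.cycleType, n = 2 := by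
    intro n hn
    have h1 := two_le_of_mem_cycleType hn
    have h3 : n ∣ orderOf x := dvd_of_mem_cycleType hn
    have h4 : orderOf x ∣ 2 := orderOf_dvd_of_pow_eq_one (by rw [pow_two]; exact hx)
    have := Nat.le_of_dvd (by norm_num) (h3.trans h4)
    omega
  have h5 : x.cycleType = Multiset.replicate (Multiset.card x.cycleType) 2 :=
    Multiset.eq_replicate.2 ⟨rfl, h2⟩
  have h6 : #x.support = Multiset.card x.cycleType * 2 := by
    rw [← sum_cycleType]
    conv_lhs => rw [h5]
    simp
  have h7 : #x.support / 2 = Multiset.card x.cycleType := by omega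
  rw [h7]
  exact h5

theorem sign_of_involution {x : Perm α} (hx : x * x = 1) :
    sign x = (-1) ^ (#x.support / 2) := by
  rw [sign_of_cycleType', cycleType_of_involution hx, Multiset.map_replicate,
    Multiset.prod_replicate]
  simp

theorem even_card_support_of_involution {x : Perm α} (hx : x * x = 1) :
    2 ∣ #x.support :=
  two_dvd_card_support (by rw [pow_two]; exact hx)

/-- The flipped factor: an involution times a transposition joining a fixed and a moved point. -/
theorem cycleType_mul_swap {x : Perm α} (hx : x * x = 1) {a b : α} (ha : x a = a) (hb : x b ≠ b) :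
    (x * swap a b).cycleType = 3 ::ₘ Multiset.replicate (#x.support / 2 - 1) 2 := by
  set b' := x b with hb'
  have hbb : x b' = b := by
    rw [hb', ← Perm.mul_apply, hx]; rfl
  have hab : a ≠ b := by
    rintro rfl
    exact hb ha
  have hab' : a ≠ b' := by
    rintro rfl
    apply hab
    rw [← hbb, ha]
  have hbne : b ≠ b' := fun h => hb h.symm
  let x₁ : Perm α := x * swap b b'
  have hx₁a : x₁ a = a := by
    show x (swap b b' a) = a
    rw [swap_apply_of_ne_of_ne hab hab', ha]
  have hx₁b : x₁ b = b := by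
    show x (swap b b' b) = b
    rw [swap_apply_left, hbb]
  have hx₁b' : x₁ b' = b' := by
    show x (swap b b' b') = b'
    rw [swap_apply_right]
  have hcomm : swap b b' * x = x * swap b b' := by
    have h1 : x * swap b b' * x⁻¹ = swap (x b) (x b') := (swap_apply_apply x b b').symm
    rw [hbb, ← hb', swap_comm b' b] at h1
    calc swap b b' * x = (x * swap b b' * x⁻¹) * x := by rw [h1]
      _ = x * swap b b' := by group
  have hx₁x₁ : x₁ * x₁ = 1 := by
    calc x₁ * x₁ = x * (swap b b' * x) * swap b b' := by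
          show x * swap b b' * (x * swap b b') = _
          group
      _ = x * (x * swap b b') * swap b b' := by rw [hcomm]
      _ = (x * x) * (swap b b' * swap b b') := by group
      _ = 1 := by rw [hx, swap_mul_self, one_mul]
  let u : Perm α := swap b b' * swap b a
  have hu : IsThreeCycle u := isThreeCycle_swap_mul_swap_same hbne hab.symm hab'.symm
  have hfac : x * swap a b = x₁ * u := by
    show x * swap a b = x * swap b b' * (swap b b' * swap b a)
    rw [mul_assoc, ← mul_assoc (swap b b'), swap_mul_self, one_mul, swap_comm]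
  have hd : Disjoint x₁ u := by
    intro z
    by_cases h1 : z = a
    · left; rw [h1, hx₁a]
    by_cases h2 : z = b
    · left; rw [h2, hx₁b]
    by_cases h3 : z = b'
    · left; rw [h3, hx₁b']
    · right
      show swap b b' (swap b a z) = z
      rw [swap_apply_of_ne_of_ne h2 h1, swap_apply_of_ne_of_ne h2 h3]
  have hxfac : x = x₁ * swap b b' := by
    show x = x * swap b b' * swap b b'
    rw [mul_assoc, swap_mul_self, mul_one]
  have hd2 : Disjoint x₁ (swap b b') := by
    intro z
    by_cases h2 : z = b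
    · left; rw [h2, hx₁b]
    by_cases h3 : z = b'
    · left; rw [h3, hx₁b']
    · right
      exact swap_apply_of_ne_of_ne h2 h3
  have hcard : #x.support = #x₁.support + 2 := by
    conv_lhs => rw [hxfac]
    rw [hd2.card_support_mul, support_swap hbne, card_pair hbne]
  have h2x₁ := even_card_support_of_involution hx₁x₁
  rw [hfac, hd.cycleType_mul, cycleType_of_involution hx₁x₁, hu.cycleType, hcard]
  have e : (#x₁.support + 2) / 2 - 1 = #x₁.support / 2 := by omega
  rw [e, add_comm]
  rfl

/-- Two disjoint 2-cycles inside an invariant set of moved points. -/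
theorem exists_two_cycles {y : Perm α} (hy : y * y = 1) (E : Finset α) (hE : E ⊆ y.support)
    (hinv : ∀ z ∈ E, y z ∈ E) (hcard : 3 ≤ #E) :
    ∃ p q r s : α, p ∈ E ∧ q ∈ E ∧ r ∈ E ∧ s ∈ E ∧ p ≠ q ∧ p ≠ r ∧ p ≠ s ∧ q ≠ r ∧ q ≠ s ∧ r ≠ s ∧
      y p = q ∧ y q = p ∧ y r = s ∧ y s = r := by
  have hyy : ∀ z, y (y z) = z := fun z => by
    rw [← Perm.mul_apply, hy]; rfl
  obtain ⟨p, hp⟩ : E.Nonempty := Finset.card_pos.1 (by omega)
  have hcard2 : 0 < #((E.erase p).erase (y p)) := by
    have h1 : #(E.erase p) = #E - 1 := card_erase_of_mem hp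
    have h2 : #((E.erase p).erase (y p)) ≥ #(E.erase p) - 1 := pred_card_le_card_erase
    omega
  obtain ⟨r, hr⟩ := Finset.card_pos.1 hcard2
  simp only [mem_erase] at hr
  obtain ⟨hr1, hr2, hrE⟩ := hr
  have hnf : ∀ z ∈ E, y z ≠ z := fun z hz => mem_support.1 (hE hz)
  refine ⟨p, y p, r, y r, hp, hinv p hp, hrE, hinv r hrE, (hnf p hp).symm, hr2.symm, ?_, hr1.symm,
    ?_, (hnf r hrE).symm, rfl, hyy p, rfl, hyy r⟩
  · intro h
    apply hr1
    have := congrArg y h
    rw [hyy] at this
    exact this.symm
  · intro h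
    exact hr2 (y.injective h.symm)

theorem disjoint_swap_swap {a b c d : α} (hac : a ≠ c) (had : a ≠ d) (hbc : b ≠ c) (hbd : b ≠ d) :
    Disjoint (swap a b) (swap c d) := by
  intro z
  by_cases h1 : z = a
  · right
    rw [h1]; exact swap_apply_of_ne_of_ne hac had
  by_cases h2 : z = b
  · right
    rw [h2]; exact swap_apply_of_ne_of_ne hbc hbd
  · left
    exact swap_apply_of_ne_of_ne h1 h2

theorem cycleType_swap_mul_swap {a b c d : α} (hab : a ≠ b) (hcd : c ≠ d) (hac : a ≠ c) (had : a ≠ d)
    (hbc : b ≠ c) (hbd : b ≠ d) : (swap a b * swap c d).cycleType = {2, 2} := by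
  rw [(disjoint_swap_swap hac had hbc hbd).cycleType_mul, isSwap_iff_cycleType.1 ⟨a, b, hab, rfl⟩,
    isSwap_iff_cycleType.1 ⟨c, d, hcd, rfl⟩]
  rfl

theorem swap_identity {p q r s : α} (h11 : p ≠ r) (h12 : p ≠ s) (h13 : q ≠ r) (h14 : q ≠ s)
    (hpq : p ≠ q) (hrs : r ≠ s) :
    (swap p r * swap q s) * (swap p s * swap q r) = swap p q * swap r s := by
  ext z
  simp only [Perm.mul_apply, swap_apply_def]
  split_ifs <;> simp_all

/-- The combinatorial core. -/
theorem exists_same_type (hn : 5 ≤ Fintype.card α) {g : Perm α} (hg : sign g = 1) (hg1 : g ≠ 1) :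
    ∃ x y : Perm α, x * y = g ∧ x.cycleType = y.cycleType ∧ sign y = 1 ∧
      ∃ p q r s : α, p ≠ q ∧ p ≠ r ∧ p ≠ s ∧ q ≠ r ∧ q ≠ s ∧ r ≠ s ∧
        y p = q ∧ y q = p ∧ y r = s ∧ y s = r := by
  obtain ⟨x, y, h1, h2, h3, -, -, h6, h7, -⟩ := exists_involutions g
  have hc := h7 hg
  obtain ⟨a, hay, hax⟩ := h6 hg1
  obtain ⟨k, hk⟩ := even_card_support_of_involution h3
  have hkx : #x.support = 2 * k := by omega
  have hsy : sign y = (-1) ^ k := by
    rw [sign_of_involution h3, hk]; congr 1; omega
  rcases Nat.eq_zero_or_pos k with rfl | hkpos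
  · -- `k = 0`: impossible as `g ≠ 1`
    exfalso
    rw [mul_zero, Finset.card_eq_zero] at hk
    rw [hk] at hay
    simp at hay
  by_cases hk1 : k = 1
  · -- `x`, `y` are transpositions
    subst hk1
    obtain ⟨p, q, hpq, rfl⟩ := card_support_eq_two.1 (hkx.trans (by norm_num))
    obtain ⟨r, s, hrs, rfl⟩ := card_support_eq_two.1 (hk.trans (by norm_num))
    by_cases hdis : p ≠ r ∧ p ≠ s ∧ q ≠ r ∧ q ≠ s
    · obtain ⟨h11, h12, h13, h14⟩ := hdis
      refine ⟨swap p r * swap q s, swap p s * swap q r, ?_, ?_, ?_, p, s, q, r, h12, hpq, h11,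
        h14.symm, hrs.symm, h13, ?_, ?_, ?_, ?_⟩
      · rw [swap_identity h11 h12 h13 h14 hpq hrs, h1]
      · rw [cycleType_swap_mul_swap h11 h14 hpq h12 h13.symm hrs,
          cycleType_swap_mul_swap h12 h13 hpq h11 h14.symm hrs.symm]
      · rw [map_mul, sign_swap h12, sign_swap h13]; rfl
      · rw [Perm.mul_apply, swap_apply_of_ne_of_ne hpq h11, swap_apply_left]
      · rw [Perm.mul_apply, swap_apply_of_ne_of_ne h14.symm hrs.symm, swap_apply_right]
      · rw [Perm.mul_apply, swap_apply_left, swap_apply_of_ne_of_ne h11.symm hrs]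
      · rw [Perm.mul_apply, swap_apply_right, swap_apply_of_ne_of_ne hpq.symm h14]
    · -- the two transpositions overlap; add a common transposition on two new points
      have hT : #({p, q, r, s} : Finset α) ≤ 3 := by
        by_cases e1 : p = r
        · subst e1
          have : ({p, q, p, s} : Finset α) = {p, q, s} := by ext z; simp; tauto
          rw [this]; exact card_le_three
        by_cases e2 : p = s
        · subst e2
          have : ({p, q, r, p} : Finset α) = {p, q, r} := by ext z; simp; tauto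
          rw [this]; exact card_le_three
        by_cases e3 : q = r
        · subst e3
          have : ({p, q, q, s} : Finset α) = {p, q, s} := by ext z; simp
          rw [this]; exact card_le_three
        by_cases e4 : q = s
        · subst e4
          have : ({p, q, r, q} : Finset α) = {p, q, r} := by ext z; simp; tauto
          rw [this]; exact card_le_three
        · exact absurd ⟨e1, e2, e3, e4⟩ hdis
      have hcompl : 1 < #(({p, q, r, s} : Finset α)ᶜ) := by
        rw [card_compl]; omega
      obtain ⟨u, hu, v, hv, huv⟩ := Finset.one_lt_card.1 hcompl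
      simp only [mem_compl, mem_insert, mem_singleton, not_or] at hu hv
      obtain ⟨hu1, hu2, hu3, hu4⟩ := hu
      obtain ⟨hv1, hv2, hv3, hv4⟩ := hv
      refine ⟨swap p q * swap u v, swap u v * swap r s, ?_, ?_, ?_, u, v, r, s, huv, hu3, hu4,
        hv3, hv4, hrs, ?_, ?_, ?_, ?_⟩
      · rw [← h1, mul_assoc, ← mul_assoc (swap u v), swap_mul_self, one_mul]
      · rw [cycleType_swap_mul_swap hpq huv (Ne.symm hu1) (Ne.symm hv1) (Ne.symm hu2) (Ne.symm hv2),
          cycleType_swap_mul_swap huv hrs hu3 hu4 hv3 hv4]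
      · rw [map_mul, sign_swap huv, sign_swap hrs]; rfl
      · rw [Perm.mul_apply, swap_apply_of_ne_of_ne hu3 hu4, swap_apply_left]
      · rw [Perm.mul_apply, swap_apply_of_ne_of_ne hv3 hv4, swap_apply_right]
      · rw [Perm.mul_apply, swap_apply_left, swap_apply_of_ne_of_ne (Ne.symm hu4) (Ne.symm hv4)]
      · rw [Perm.mul_apply, swap_apply_right, swap_apply_of_ne_of_ne (Ne.symm hu3) (Ne.symm hv3)]
  rcases Nat.even_or_odd k with hev | hodd
  · -- `k` even: the involutions themselves
    have hk2 : 2 ≤ k := by omega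
    have hsy' : sign y = 1 := by rw [hsy, hev.neg_one_pow]
    obtain ⟨p, q, r, s, -, -, -, -, e1, e2, e3, e4, e5, e6, e7, e8, e9, e10⟩ :=
      exists_two_cycles h3 y.support (Subset.refl _) (fun z hz => apply_mem_support.2 hz)
        (by omega)
    refine ⟨x, y, h1, ?_, hsy', p, q, r, s, e1, e2, e3, e4, e5, e6, e7, e8, e9, e10⟩
    rw [cycleType_of_involution h2, cycleType_of_involution h3, hc]
  · -- `k` odd, `k ≥ 3`: flip
    have hk3 : 3 ≤ k := by
      obtain ⟨t, rfl⟩ := hodd
      omega
    have hsym : ¬ x.support ⊆ y.support := by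
      intro h
      have := Finset.eq_of_subset_of_card_le h (by omega)
      rw [this] at hax
      exact hax hay
    obtain ⟨b, hbx, hby⟩ := Finset.not_subset.1 hsym
    have hxa : x a = a := by
      by_contra h
      exact hax (mem_support.2 h)
    have hyb : y b = b := by
      by_contra h
      exact hby (mem_support.2 h)
    have hxb : x b ≠ b := mem_support.1 hbx
    have hya : y a ≠ a := mem_support.1 hay
    have hyinv : y⁻¹ = y := inv_eq_of_mul_eq_one_left h3
    have hyy : ∀ z, y (y z) = z := fun z => by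
      rw [← Perm.mul_apply, h3]; rfl
    have hab : a ≠ b := by
      rintro rfl
      exact hby hay
    have hy' : swap a b * y = (y * swap b a)⁻¹ := by
      rw [mul_inv_rev, hyinv, swap_inv, swap_comm]
    let E : Finset α := (y.support.erase a).erase (y a)
    have hEsub : E ⊆ y.support := fun z hz => (mem_erase.1 (mem_erase.1 hz).2).2
    have hEinv : ∀ z ∈ E, y z ∈ E := by
      intro z hz
      simp only [E, mem_erase] at hz ⊢
      obtain ⟨h11, h12, h13⟩ := hz
      refine ⟨fun h => h12 (y.injective h), ?_, apply_mem_support.2 h13⟩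
      intro h
      apply h11
      rw [← h, hyy]
    have hEcard : 3 ≤ #E := by
      have h11 : #(y.support.erase a) = #y.support - 1 := card_erase_of_mem hay
      have h12 : #E ≥ #(y.support.erase a) - 1 := pred_card_le_card_erase
      omega
    have hEact : ∀ z ∈ E, (swap a b * y) z = y z := by
      intro z hz
      rw [Perm.mul_apply]
      have h11 := hEinv z hz
      simp only [E, mem_erase] at h11
      refine swap_apply_of_ne_of_ne h11.2.1 ?_
      rintro e
      rw [e] at h11
      exact hby h11.2.2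
    obtain ⟨p, q, r, s, hp, hq, hr, hs, e1, e2, e3, e4, e5, e6, e7, e8, e9, e10⟩ :=
      exists_two_cycles h3 E hEsub hEinv hEcard
    refine ⟨x * swap a b, swap a b * y, ?_, ?_, ?_, p, q, r, s, e1, e2, e3, e4, e5, e6, ?_, ?_, ?_, ?_⟩
    · rw [mul_assoc, ← mul_assoc (swap a b), swap_mul_self, one_mul, h1]
    · rw [hy', cycleType_inv, cycleType_mul_swap h2 hxa hxb, cycleType_mul_swap h3 hyb hya, hc]
    · rw [map_mul, sign_swap hab, hsy, hodd.neg_one_pow]; rfl
    · rw [hEact p hp, e7]
    · rw [hEact q hq, e8]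
    · rw [hEact r hr, e9]
    · rw [hEact s hs, e10]

/-- The final form: `g` is a commutator of even permutations, the second with two 2-cycles. -/
theorem exists_commutator_form (hn : 5 ≤ Fintype.card α) {g : Perm α} (hg : sign g = 1)
    (hg1 : g ≠ 1) :
    ∃ a b : Perm α, sign a = 1 ∧ sign b = 1 ∧ a * b * a⁻¹ * b⁻¹ = g ∧
      ∃ p q r s : α, p ≠ q ∧ p ≠ r ∧ p ≠ s ∧ q ≠ r ∧ q ≠ s ∧ r ≠ s ∧
        b p = q ∧ b q = p ∧ b r = s ∧ b s = r := by
  obtain ⟨x, y, h1, h2, h3, p, q, r, s, e1, e2, e3, e4, e5, e6, e7, e8, e9, e10⟩ :=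
    exists_same_type hn hg hg1
  obtain ⟨w, hw⟩ := isConj_iff.1 (isConj_iff_cycleType_eq.2
    ((cycleType_inv y).trans h2.symm) : IsConj y⁻¹ x)
  have hcomm : swap p q * y⁻¹ * (swap p q)⁻¹ = y⁻¹ := by
    have h : y * swap p q * y⁻¹ = swap p q := by
      rw [← swap_apply_apply, e7, e8, swap_comm]
    have h' : swap p q * y = y * swap p q := by
      calc swap p q * y = (y * swap p q * y⁻¹) * y := by rw [h]
        _ = y * swap p q := by group
    rw [swap_inv]
    calc swap p q * y⁻¹ * swap p q
        = y⁻¹ * (y * swap p q * y⁻¹) * swap p q := by group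
      _ = y⁻¹ * swap p q * swap p q := by rw [h]
      _ = y⁻¹ := by rw [mul_assoc, swap_mul_self, mul_one]
  obtain ⟨w', hw's, hw'⟩ : ∃ w' : Perm α, sign w' = 1 ∧ w' * y⁻¹ * w'⁻¹ = x := by
    rcases Int.units_eq_one_or (sign w) with hs | hs
    · exact ⟨w, hs, hw⟩
    · refine ⟨w * swap p q, ?_, ?_⟩
      · rw [map_mul, hs, sign_swap e1]; rfl
      · calc w * swap p q * y⁻¹ * (w * swap p q)⁻¹
            = w * (swap p q * y⁻¹ * (swap p q)⁻¹) * w⁻¹ := by group
          _ = x := by rw [hcomm, hw]
  refine ⟨w', y⁻¹, hw's, ?_, ?_, p, q, r, s, e1, e2, e3, e4, e5, e6, ?_, ?_, ?_, ?_⟩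
  · rw [map_inv, h3]; rfl
  · rw [hw', inv_inv, h1]
  · rw [Perm.inv_eq_iff_eq]; exact e8.symm
  · rw [Perm.inv_eq_iff_eq]; exact e7.symm
  · rw [Perm.inv_eq_iff_eq]; exact e10.symm
  · rw [Perm.inv_eq_iff_eq]; exact e9.symm

end Cfsg.Agent.Lib.Ore2An.Fact
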