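import Cfsg.Agent.Lib.AltSchur.Carmichael
import Cfsg.Agent.Lib.AltSchur.Lifts
import Cfsg.Agent.Lib.LocalEven.AltCore
import Cfsg.Agent.Lib.Ore2An.Fact

/-!
# The double cover of the alternating group: every element is a commutator
-/

set_option autoImplicit false

namespace Cfsg.Agent.Lib.Ore2An.Cover

open Subgroup Equiv Equiv.Perm
open scoped commutatorElement
open Cfsg.Agent.Lib.AltSchur.Lifts Cfsg.Agent.Lib.AltSchur.Carmichael Cfsg.Agent.Lib.Ore2An.Fact

set_option linter.unusedSectionVars false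

variable {α : Type*} [Fintype α] [DecidableEq α] {Γ : Type*} [Group Γ]

/-- `F` exhibits `Γ` as a central extension of `A(α)` with kernel `{1, z}`. -/
structure DC (F : Γ →* Perm α) (z : Γ) : Prop where
  cover : IsAltCover F
  z_ne : z ≠ 1
  z_sq : z * z = 1
  Fz : F z = 1
  ker : ∀ u, F u = 1 → u = 1 ∨ u = z

theorem c3_mul_c3 {a b j k : α} (hab : a ≠ b) (haj : a ≠ j) (hak : a ≠ k) (hbj : b ≠ j) (hbk : b ≠ k)
    (hjk : j ≠ k) : c3 a b j * c3 a b k = swap a k * swap b j := by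
  ext y
  simp only [c3, Perm.mul_apply, swap_apply_def]
  split_ifs <;> simp_all

theorem swap_identity' {p q r s : α} (h11 : p ≠ r) (h12 : p ≠ s) (h13 : q ≠ r) (h14 : q ≠ s)
    (hpq : p ≠ q) (hrs : r ≠ s) :
    (swap p r * swap q s) * (swap p q * swap r s) = swap p s * swap q r := by
  ext y
  simp only [Perm.mul_apply, swap_apply_def]
  split_ifs <;> simp_all

/-- All double transpositions are conjugate under even permutations. -/
theorem exists_even_conj {p q r s p' q' r' s' : α} (h1 : p ≠ q) (h2 : p ≠ r) (h3 : p ≠ s)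
    (h4 : q ≠ r) (h5 : q ≠ s) (h6 : r ≠ s) (h1' : p' ≠ q') (h2' : p' ≠ r') (h3' : p' ≠ s')
    (h4' : q' ≠ r') (h5' : q' ≠ s') (h6' : r' ≠ s') :
    ∃ w : Perm α, sign w = 1 ∧ w * (swap p q * swap r s) * w⁻¹ = swap p' q' * swap r' s' := by
  obtain ⟨w, hw⟩ := isConj_iff.1 (isConj_iff_cycleType_eq.2
    ((cycleType_swap_mul_swap h1 h6 h2 h3 h4 h5).trans
      (cycleType_swap_mul_swap h1' h6' h2' h3' h4' h5').symm) :
    IsConj (swap p q * swap r s) (swap p' q' * swap r' s'))
  rcases Int.units_eq_one_or (sign w) with hs | hs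
  · exact ⟨w, hs, hw⟩
  · refine ⟨w * swap p q, ?_, ?_⟩
    · rw [map_mul, hs, sign_swap h1]; rfl
    · rw [← hw, swap_comm]
      have hd : Disjoint (swap q p) (swap r s) := disjoint_swap_swap h4 h5 h2 h3
      have e : swap q p * (swap q p * swap r s) * (swap q p)⁻¹ = swap q p * swap r s := by
        rw [swap_inv]
        calc swap q p * (swap q p * swap r s) * swap q p
            = swap q p * (swap q p * (swap r s * swap q p)) := by group
          _ = swap q p * (swap q p * (swap q p * swap r s)) := by rw [hd.commute.symm.eq]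
          _ = swap q p * swap r s := by rw [← mul_assoc (swap q p) (swap q p), swap_mul_self, one_mul]
      calc w * swap q p * (swap q p * swap r s) * (w * swap q p)⁻¹
          = w * (swap q p * (swap q p * swap r s) * (swap q p)⁻¹) * w⁻¹ := by group
        _ = w * (swap q p * swap r s) * w⁻¹ := by rw [e]

variable {F : Γ →* Perm α} {z : Γ} (h : DC F z)
include h

theorem z_central (g : Γ) : g * z = z * g :=
  mem_center_iff.1 (h.cover.cen z h.Fz) g

theorem lift_eq {u v : Γ} (e : F u = F v) : v = u ∨ v = u * z := by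
  have : F (u⁻¹ * v) = 1 := by rw [map_mul, map_inv, e, inv_mul_cancel]
  rcases h.ker _ this with h1 | h1
  · left
    rw [inv_mul_eq_one] at h1
    exact h1.symm
  · right
    rw [← h1]; group

theorem sq_of_lift {u v : Γ} (e : F u = F v) : v * v = u * u := by
  rcases lift_eq h e with rfl | rfl
  · rfl
  · calc u * z * (u * z) = u * (z * u) * z := by group
      _ = u * (u * z) * z := by rw [← z_central h u]
      _ = u * u * (z * z) := by group
      _ = u * u := by rw [h.z_sq, mul_one]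

theorem exists_lift_cube' {t : Perm α} (ht : sign t = 1) (h3 : t ^ 3 = 1) :
    ∃ x : Γ, F x = t ∧ x ^ 3 = 1 := by
  obtain ⟨x, hx⟩ := h.cover.lift t ht
  have hx3 : F (x ^ 3) = 1 := by rw [map_pow, hx, h3]
  rcases h.ker _ hx3 with h1 | h1
  · exact ⟨x, hx, h1⟩
  · refine ⟨x * z, by rw [map_mul, hx, h.Fz, mul_one], ?_⟩
    have hc : Commute x z := z_central h x
    rw [hc.mul_pow, h1]
    calc z * z ^ 3 = (z * z) * (z * z) := by
          simp only [pow_succ, pow_zero, one_mul, mul_assoc]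
      _ = 1 := by rw [h.z_sq, one_mul]

/-- If all lifts of double transpositions square to `1`, the cover splits. -/
theorem not_all_sq_one [Finite Γ] (hperf : commutator Γ = ⊤)
    (m : ℕ) (hcard : Fintype.card α = m + 2) (hm : 2 ≤ m) (p₀ p₁ : α) (pt : ℕ → α)
    (h01 : p₀ ≠ p₁) (hpt0 : ∀ k < m, pt k ≠ p₀) (hpt1 : ∀ k < m, pt k ≠ p₁)
    (hinj : ∀ j < m, ∀ k < m, j ≠ k → pt j ≠ pt k)
    (hsurj : ∀ y, y ≠ p₀ → y ≠ p₁ → ∃ k < m, pt k = y)
    (hall : ∀ p q r s : α, p ≠ q → p ≠ r → p ≠ s → q ≠ r → q ≠ s → r ≠ s →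
      ∀ L : Γ, F L = swap p q * swap r s → L * L = 1) : False := by
  have hF := h.cover
  let a : ℕ → Perm α := fun k => c3 p₀ p₁ (pt k)
  have ha0 : ∀ k < m, p₀ ≠ pt k := fun k hk => (hpt0 k hk).symm
  have ha1 : ∀ k < m, p₁ ≠ pt k := fun k hk => (hpt1 k hk).symm
  have hex : ∀ k, ∃ v : Γ, k < m → F v = a k ∧ v ^ 3 = 1 := by
    intro k
    by_cases hk : k < m
    · obtain ⟨x, h1, h2⟩ := exists_lift_cube' h (t := a k) (sign_c3 h01 (ha0 k hk))
        (c3_pow_three h01 (ha0 k hk) (ha1 k hk))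
      exact ⟨x, fun _ => ⟨h1, h2⟩⟩
    · exact ⟨1, fun h' => absurd h' hk⟩
  choose b hb using hex
  have hb3 : ∀ k < m, b k ^ 3 = 1 := fun k hk => (hb k hk).2
  have hFb : ∀ k < m, F (b k) = a k := fun k hk => (hb k hk).1
  have hb2 : ∀ j < m, ∀ k < m, j ≠ k → (b j * b k) ^ 2 = 1 := by
    intro j hj k hk hjk
    rw [pow_two]
    apply hall p₀ (pt k) p₁ (pt j) (ha0 k hk) h01 (ha0 j hj) (hpt1 k hk) (hinj k hk j hj hjk.symm)
      (ha1 j hj)
    rw [map_mul, hFb j hj, hFb k hk]
    exact c3_mul_c3 h01 (ha0 j hj) (ha0 k hk) (ha1 j hj) (ha1 k hk) (hinj j hj k hk hjk)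
  have hbound := card_closure_mul_two_le b m hb3 hb2
  set R := closure (b '' {k | k < m}) with hR
  have h0m : 0 < m := by omega
  have hgen : R.map F = alternatingGroup α := by
    have h1 : R.map F = closure (a '' {k | k < m}) := by
      rw [hR, MonoidHom.map_closure]
      congr 1
      ext y
      constructor
      · rintro ⟨_, ⟨k, hk, rfl⟩, rfl⟩
        exact ⟨k, hk, (hFb k hk).symm⟩
      · rintro ⟨k, hk, rfl⟩
        exact ⟨b k, ⟨k, hk, rfl⟩, hFb k hk⟩
    rw [h1]
    apply Cfsg.Agent.Lib.LocalEven.AltCore.closure_eq_alternating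
    · rintro _ ⟨k, hk, rfl⟩
      exact isThreeCycle_c3 h01 (ha0 k hk) (ha1 k hk)
    · exact ⟨a 0, 0, h0m, rfl⟩
    · have hmem : ∀ k < m, a k ∈ closure (a '' {k | k < m}) := fun k hk =>
        subset_closure ⟨k, hk, rfl⟩
      have h0 : ∀ y, ∃ g ∈ closure (a '' {k | k < m}), g p₀ = y := by
        intro y
        by_cases hy0 : y = p₀
        · exact ⟨1, one_mem _, by rw [hy0]; rfl⟩
        by_cases hy1 : y = p₁
        · refine ⟨a 0 * a 0, mul_mem (hmem 0 h0m) (hmem 0 h0m), ?_⟩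
          rw [hy1, Perm.mul_apply]
          show c3 p₀ p₁ (pt 0) (c3 p₀ p₁ (pt 0) p₀) = p₁
          rw [c3_apply_a (ha0 0 h0m) (ha1 0 h0m), c3_apply_c]
        · obtain ⟨k, hk, rfl⟩ := hsurj y hy0 hy1
          exact ⟨a k, hmem k hk, c3_apply_a (ha0 k hk) (ha1 k hk)⟩
      intro x y
      obtain ⟨g, hg, hgx⟩ := h0 x
      obtain ⟨h', hh, hhy⟩ := h0 y
      refine ⟨h' * g⁻¹, mul_mem hh (inv_mem hg), ?_⟩
      rw [Perm.mul_apply, ← hgx]
      simp [hhy]
  have hAcard : Nat.card (alternatingGroup α) * 2 = (m + 2).factorial := by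
    have : Nontrivial α := Fintype.one_lt_card_iff_nontrivial.1 (by omega)
    rw [mul_comm, two_mul_nat_card_alternatingGroup, Nat.card_perm, Nat.card_eq_fintype_card, hcard]
  have hsurjR : Function.Surjective (F.subgroupMap R) := F.subgroupMap_surjective R
  have hcardR : Nat.card R = Nat.card (R.map F) := by
    have h1 : Nat.card (R.map F) ≤ Nat.card R := Nat.card_le_card_of_surjective _ hsurjR
    rw [hgen] at h1 ⊢
    omega
  have hbij : Function.Bijective (F.subgroupMap R) :=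
    (Nat.bijective_iff_surjective_and_card _).2 ⟨hsurjR, hcardR⟩
  have hinjR : ∀ r ∈ R, F r = 1 → r = 1 := by
    intro r hr h1
    have : F.subgroupMap R ⟨r, hr⟩ = F.subgroupMap R 1 := by
      apply Subtype.ext
      show F r = F 1
      rw [h1, map_one]
    have := hbij.1 this
    exact congrArg Subtype.val this
  have hcommR : commutator Γ ≤ R := by
    rw [commutator_eq_closure, closure_le]
    rintro _ ⟨u, v, rfl⟩
    have hlift : ∀ y : Γ, ∃ y' ∈ R, F y' = F y := by
      intro y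
      have : F y ∈ R.map F := by
        rw [hgen]
        exact mem_alternatingGroup.2 (hF.even y)
      obtain ⟨r, hr, hry⟩ := this
      exact ⟨r, hr, hry⟩
    obtain ⟨u', hu', hu⟩ := hlift u
    obtain ⟨v', hv', hv⟩ := hlift v
    have e : ⁅u, v⁆ = ⁅u', v'⁆ := by
      rw [commutatorElement_def, commutatorElement_def]
      exact cc_eq_of_eq hF hu.symm hv.symm
    show ⁅u, v⁆ ∈ R
    rw [e, commutatorElement_def]
    exact mul_mem (mul_mem (mul_mem hu' hv') (inv_mem hu')) (inv_mem hv')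
  have hzR : z ∈ R := hcommR (by rw [hperf]; trivial)
  exact h.z_ne (hinjR z hzR h.Fz)

/-- Lifts of double transpositions square to `z`. -/
theorem sq_eq_z [Finite Γ] (hperf : commutator Γ = ⊤)
    (m : ℕ) (hcard : Fintype.card α = m + 2) (hm : 2 ≤ m) (p₀ p₁ : α) (pt : ℕ → α)
    (h01 : p₀ ≠ p₁) (hpt0 : ∀ k < m, pt k ≠ p₀) (hpt1 : ∀ k < m, pt k ≠ p₁)
    (hinj : ∀ j < m, ∀ k < m, j ≠ k → pt j ≠ pt k)
    (hsurj : ∀ y, y ≠ p₀ → y ≠ p₁ → ∃ k < m, pt k = y)
    {p q r s : α} (h1 : p ≠ q) (h2 : p ≠ r) (h3 : p ≠ s) (h4 : q ≠ r) (h5 : q ≠ s) (h6 : r ≠ s)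
    {L : Γ} (hL : F L = swap p q * swap r s) : L * L = z := by
  by_contra hne
  have hLL : L * L = 1 := by
    have e : F (L * L) = 1 := by
      rw [map_mul, hL]
      calc swap p q * swap r s * (swap p q * swap r s)
          = swap p q * (swap r s * swap p q) * swap r s := by group
        _ = swap p q * (swap p q * swap r s) * swap r s := by
            rw [(disjoint_swap_swap h2 h3 h4 h5).commute.symm.eq]
        _ = (swap p q * swap p q) * (swap r s * swap r s) := by group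
        _ = 1 := by rw [swap_mul_self, swap_mul_self, one_mul]
    rcases h.ker _ e with h' | h'
    · exact h'
    · exact absurd h' hne
  apply not_all_sq_one h hperf m hcard hm p₀ p₁ pt h01 hpt0 hpt1 hinj hsurj
  intro p' q' r' s' h1' h2' h3' h4' h5' h6' L' hL'
  obtain ⟨w, hw, hww⟩ := exists_even_conj h1 h2 h3 h4 h5 h6 h1' h2' h3' h4' h5' h6'
  obtain ⟨W, hW⟩ := h.cover.lift w hw
  have e : F (W * L * W⁻¹) = F L' := by
    rw [map_mul, map_mul, map_inv, hW, hL, hww, hL']
  rw [sq_of_lift h e]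
  calc W * L * W⁻¹ * (W * L * W⁻¹) = W * (L * L) * W⁻¹ := by group
    _ = 1 := by rw [hLL]; group

/-- Lifts of two commuting double transpositions in a four-group do not commute. -/
theorem comm_eq_z {c d : Γ} (hc : c * c = z) (hd : d * d = z) (hcd : (c * d) * (c * d) = z) :
    c * d * c⁻¹ * d⁻¹ = z := by
  have hz' : z⁻¹ = z := inv_eq_of_mul_eq_one_left h.z_sq
  have hci : c⁻¹ = c * z := by
    rw [inv_eq_iff_mul_eq_one, ← mul_assoc, hc, h.z_sq]
  have hdi : d⁻¹ = d * z := by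
    rw [inv_eq_iff_mul_eq_one, ← mul_assoc, hd, h.z_sq]
  rw [hci, hdi]
  calc c * d * (c * z) * (d * z) = (c * d) * (c * (z * d)) * z := by group
    _ = (c * d) * (c * (d * z)) * z := by rw [z_central h d]
    _ = ((c * d) * (c * d)) * (z * z) := by group
    _ = z := by rw [hcd, h.z_sq, mul_one]

/-- A lift of an element of order 3 commuting with `F c` commutes with `c`. -/
theorem commute_of_cube {c l : Γ} (hcomm : F l * F c = F c * F l) (h3 : (F l) ^ 3 = 1) :
    l * c = c * l := by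
  have e : F l = F (c * l * c⁻¹) := by
    rw [map_mul, map_mul, map_inv, ← hcomm]; group
  have hl3 : l ^ 3 ∈ center Γ := h.cover.cen _ (by rw [map_pow, h3])
  have hcl : (c * l * c⁻¹) ^ 3 = l ^ 3 := by
    rw [conj_pow, mem_center_iff.1 hl3 c]
    group
  rcases lift_eq h e with h1 | h1
  · have : c * l = l * c := by
      calc c * l = (c * l * c⁻¹) * c := by group
        _ = l * c := by rw [h1]
    exact this.symm
  · exfalso
    apply h.z_ne
    rw [h1] at hcl
    have hc : Commute l z := z_central h l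
    rw [hc.mul_pow] at hcl
    have : z ^ 3 = 1 := by
      have := mul_left_cancel (a := l ^ 3) (b := z ^ 3) (c := 1) (by rw [hcl, mul_one])
      exact this
    calc z = z * (z * z) := by rw [h.z_sq, mul_one]
      _ = z ^ 3 := by simp only [pow_succ, pow_zero, one_mul, mul_assoc]
      _ = 1 := this

/-- Lifts of even permutations fixing `T` pointwise commute with `c` whenever `F c` is supported
on `T`. -/
theorem commute_of_even_fix {T : Finset α} {c : Γ} (hcT : ∀ w, w ∉ T → F c w = w)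
    {ρ : Γ} (hρ : sign (F ρ) = 1) (hρT : ∀ w ∈ T, F ρ w = w) : ρ * c = c * ρ := by
  let P : α → Prop := fun w => w ∉ T
  -- the restriction
  have hinv : ∀ x, P (F ρ x) ↔ P x := by
    intro x
    by_cases hx : x ∈ T
    · rw [hρT x hx]
    · have : F ρ x ∉ T := by
        intro h'
        apply hx
        have := hρT _ h'
        rw [(F ρ).injective this] at h'
        exact h'
      simp only [P]
      tauto
  let ρ' : Perm { w // P w } := (F ρ).subtypePerm hinv
  have hρ' : ofSubtype ρ' = F ρ := by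
    apply ofSubtype_subtypePerm
    intro x hx h'
    exact hx (hρT x h')
  have hs : sign ρ' = 1 := by
    rw [← sign_ofSubtype, hρ', hρ]
  have hmem : ρ' ∈ closure {σ : Perm { w // P w } | IsThreeCycle σ} := by
    rw [closure_three_cycles_eq_alternating]
    exact hs
  have key : ∀ σ ∈ closure {σ : Perm { w // P w } | IsThreeCycle σ},
      ∀ l : Γ, F l = ofSubtype σ → l * c = c * l := by
    intro σ hσ
    induction hσ using closure_induction with
    | mem σ hσ =>
      intro l hl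
      have ht : IsThreeCycle σ := hσ
      apply commute_of_cube h
      · rw [hl]
        have hd : Disjoint (ofSubtype σ) (F c) := by
          intro w
          by_cases hw : P w
          · right
            exact hcT w hw
          · left
            exact ofSubtype_apply_of_not_mem σ hw
        exact hd.commute.eq
      · rw [hl, ← map_pow]
        have : σ ^ 3 = 1 := by
          rw [← ht.orderOf]; exact pow_orderOf_eq_one σ
        rw [this, map_one]
    | one =>
      intro l hl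
      rw [map_one] at hl
      exact (mem_center_iff.1 (h.cover.cen l hl) c).symm
    | mul σ₁ σ₂ hσ₁ hσ₂ ih₁ ih₂ =>
      intro l hl
      have hs₁ : sign (ofSubtype σ₁) = 1 := by
        rw [sign_ofSubtype]
        rw [closure_three_cycles_eq_alternating] at hσ₁
        exact hσ₁
      obtain ⟨l₁, hl₁⟩ := h.cover.lift _ hs₁
      have hl₂ : F (l₁⁻¹ * l) = ofSubtype σ₂ := by
        rw [map_mul, map_inv, hl, hl₁, map_mul, inv_mul_cancel_left]
      have e1 := ih₁ l₁ hl₁
      have e2 := ih₂ _ hl₂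
      calc l * c = l₁ * ((l₁⁻¹ * l) * c) := by group
        _ = l₁ * (c * (l₁⁻¹ * l)) := by rw [e2]
        _ = (l₁ * c) * (l₁⁻¹ * l) := by group
        _ = (c * l₁) * (l₁⁻¹ * l) := by rw [e1]
        _ = c * l := by group
    | inv σ hσ ih =>
      intro l hl
      have hl' : F l⁻¹ = ofSubtype σ := by
        rw [map_inv, hl, map_inv, inv_inv]
      have e := ih _ hl'
      calc l * c = l * (c * l⁻¹) * l := by group
        _ = l * (l⁻¹ * c) * l := by rw [e]
        _ = c * l := by group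
  exact key ρ' hmem ρ hρ'.symm

/-- Every element of the double cover is a commutator. -/
theorem main [Finite Γ] (hperf : commutator Γ = ⊤)
    (m : ℕ) (hcard : Fintype.card α = m + 2) (hm : 3 ≤ m) (p₀ p₁ : α) (pt : ℕ → α)
    (h01 : p₀ ≠ p₁) (hpt0 : ∀ k < m, pt k ≠ p₀) (hpt1 : ∀ k < m, pt k ≠ p₁)
    (hinj : ∀ j < m, ∀ k < m, j ≠ k → pt j ≠ pt k)
    (hsurj : ∀ y, y ≠ p₀ → y ≠ p₁ → ∃ k < m, pt k = y) (g : Γ) :
    ∃ a b : Γ, a * b * a⁻¹ * b⁻¹ = g := by
  have hm2 : 2 ≤ m := by omega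
  have hsq : ∀ {p q r s : α}, p ≠ q → p ≠ r → p ≠ s → q ≠ r → q ≠ s → r ≠ s →
      ∀ {L : Γ}, F L = swap p q * swap r s → L * L = z := fun h1 h2 h3 h4 h5 h6 _ hL =>
    sq_eq_z h hperf m hcard hm2 p₀ p₁ pt h01 hpt0 hpt1 hinj hsurj h1 h2 h3 h4 h5 h6 hL
  have hsgn : ∀ {a b c d : α}, a ≠ b → c ≠ d → sign (swap a b * swap c d) = 1 := by
    intro a b c d hab hcd
    rw [map_mul, sign_swap hab, sign_swap hcd]; rfl
  have hcomm : ∀ {p q r s : α}, p ≠ q → p ≠ r → p ≠ s → q ≠ r → q ≠ s → r ≠ s →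
      ∃ c d : Γ, F c = swap p r * swap q s ∧ F d = swap p q * swap r s ∧
        c * d * c⁻¹ * d⁻¹ = z := by
    intro p q r s h1 h2 h3 h4 h5 h6
    obtain ⟨c, hc⟩ := h.cover.lift _ (hsgn h2 h5)
    obtain ⟨d, hd⟩ := h.cover.lift _ (hsgn h1 h6)
    refine ⟨c, d, hc, hd, comm_eq_z h (hsq h2 h1 h3 h4.symm h6 h5 hc) (hsq h1 h2 h3 h4 h5 h6 hd) ?_⟩
    apply hsq h3 h1 h2 h5.symm h6.symm h4
    rw [map_mul, hc, hd]
    exact swap_identity' h2 h3 h4 h5 h1 h6
  have hn5 : 5 ≤ Fintype.card α := by omega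
  by_cases hg : F g = 1
  · rcases h.ker g hg with rfl | rfl
    · exact ⟨1, 1, by group⟩
    · have h0m : 0 < m := by omega
      have h1m : 1 < m := by omega
      obtain ⟨c, d, -, -, e⟩ := hcomm h01 (hpt0 0 h0m).symm (hpt0 1 h1m).symm (hpt1 0 h0m).symm
        (hpt1 1 h1m).symm (hinj 0 h0m 1 h1m (by omega))
      exact ⟨c, d, e⟩
  obtain ⟨A, B, hA, hB, hAB, p, q, r, s, h1, h2, h3, h4, h5, h6, e1, e2, e3, e4⟩ :=
    exists_commutator_form hn5 (h.cover.even g) hg
  obtain ⟨a, ha⟩ := h.cover.lift A hA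
  obtain ⟨b, hb⟩ := h.cover.lift B hB
  obtain ⟨c, d, hc, hd, hcd⟩ := hcomm h1 h2 h3 h4 h5 h6
  have hρ : (d⁻¹ * b) * c = c * (d⁻¹ * b) := by
    apply commute_of_even_fix h (T := {p, q, r, s})
    · intro w hw
      simp only [Finset.mem_insert, Finset.mem_singleton, not_or] at hw
      obtain ⟨hw1, hw2, hw3, hw4⟩ := hw
      rw [hc, Perm.mul_apply, swap_apply_of_ne_of_ne hw2 hw4, swap_apply_of_ne_of_ne hw1 hw3]
    · exact h.cover.even _
    · intro w hw
      rw [map_mul, map_inv, hd, hb, Perm.mul_apply, Perm.inv_eq_iff_eq]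
      simp only [Finset.mem_insert, Finset.mem_singleton] at hw
      rw [Perm.mul_apply]
      rcases hw with rfl | rfl | rfl | rfl
      · rw [e1, swap_apply_of_ne_of_ne h2 h3, swap_apply_left]
      · rw [e2, swap_apply_of_ne_of_ne h4 h5, swap_apply_right]
      · rw [e3, swap_apply_left, swap_apply_of_ne_of_ne h3.symm h5.symm]
      · rw [e4, swap_apply_right, swap_apply_of_ne_of_ne h2.symm h4.symm]
  have hcb : c * b * c⁻¹ * b⁻¹ = z := by
    have hρ' : (d⁻¹ * b) * c⁻¹ = c⁻¹ * (d⁻¹ * b) := by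
      calc (d⁻¹ * b) * c⁻¹ = c⁻¹ * (c * (d⁻¹ * b)) * c⁻¹ := by group
        _ = c⁻¹ * ((d⁻¹ * b) * c) * c⁻¹ := by rw [hρ]
        _ = c⁻¹ * (d⁻¹ * b) := by group
    calc c * b * c⁻¹ * b⁻¹ = c * d * ((d⁻¹ * b) * c⁻¹) * b⁻¹ := by group
      _ = c * d * (c⁻¹ * (d⁻¹ * b)) * b⁻¹ := by rw [hρ']
      _ = c * d * c⁻¹ * d⁻¹ := by group
      _ = z := hcd
  have hlift : F (a * b * a⁻¹ * b⁻¹) = F g := by
    rw [← hAB]
    simp only [map_mul, map_inv, ha, hb]
  rcases lift_eq h hlift with e | e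
  · exact ⟨a, b, e.symm⟩
  · refine ⟨a * c, b, ?_⟩
    rw [e]
    calc a * c * b * (a * c)⁻¹ * b⁻¹ = a * (c * b * c⁻¹ * b⁻¹) * (b * a⁻¹ * b⁻¹) := by group
      _ = a * z * (b * a⁻¹ * b⁻¹) := by rw [hcb]
      _ = a * (z * (b * a⁻¹ * b⁻¹)) := by group
      _ = a * ((b * a⁻¹ * b⁻¹) * z) := by rw [← z_central h (b * a⁻¹ * b⁻¹)]
      _ = a * b * a⁻¹ * b⁻¹ * z := by group

end Cfsg.Agent.Lib.Ore2An.Cover
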