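import Mathlib

/-!
# Reflection factorizations of permutations

Every cycle is a product of two involutions; assembling these over the cycles of an even
permutation `g` gives `g = x y` with `x, y` involutions moving equally many points.
-/

set_option autoImplicit false

namespace Cfsg.Agent.Lib.Ore2An.Refl

open Equiv Equiv.Perm Finset

variable {α : Type*} [Fintype α] [DecidableEq α]

theorem exists_inverting {c : Perm α} (hc : c.IsCycle) {p : α} (hp : c p ≠ p) :
    ∃ x : Perm α, x p = p ∧ x * c = c⁻¹ * x ∧ ∀ z, c z = z → x z = z := by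
  obtain ⟨w, hw⟩ := isConj_iff.1 (isConj_iff_cycleType_eq.2 (cycleType_inv c).symm :
    IsConj c c⁻¹)
  have hwc : w * c = c⁻¹ * w := by rw [← hw]; group
  have hwmove : ∀ z, c z ≠ z → c (w z) ≠ w z := by
    intro z hz h
    have h1 : (w * c) z = (c⁻¹ * w) z := by rw [hwc]
    rw [Perm.mul_apply, Perm.mul_apply] at h1
    have h2 : c⁻¹ (w z) = w z := by
      rw [Perm.inv_eq_iff_eq]; exact h.symm
    rw [h2] at h1
    exact hz (w.injective h1)
  obtain ⟨j, hj⟩ := hc.exists_zpow_eq hp (hwmove p hp)
  let x₁ : Perm α := c ^ (-j) * w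
  have hx₁p : x₁ p = p := by
    show (c ^ (-j)) (w p) = p
    rw [← hj, ← Perm.mul_apply, ← zpow_add]; simp
  have hx₁c : x₁ * c = c⁻¹ * x₁ := by
    show c ^ (-j) * w * c = c⁻¹ * (c ^ (-j) * w)
    rw [mul_assoc, hwc, ← mul_assoc, ← mul_assoc]
    congr 1
    exact ((Commute.refl c).inv_right.zpow_left _).eq
  have hx₁move : ∀ z, c (x₁ z) ≠ x₁ z ↔ c z ≠ z := by
    intro z
    have h1 : x₁ (c z) = c⁻¹ (x₁ z) := by
      have := congrArg (fun f : Perm α => f z) hx₁c
      simpa [Perm.mul_apply] using this
    constructor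
    · intro h h'
      apply h
      rw [h'] at h1
      have : c (x₁ z) = c (c⁻¹ (x₁ z)) := by rw [← h1]
      simpa [Perm.mul_apply] using this.trans (by simp)
    · intro h h'
      apply h
      apply x₁.injective
      rw [h1, Perm.inv_eq_iff_eq]
      exact h'.symm
  let x : Perm α := ofSubtype (x₁.subtypePerm (p := fun z => c z ≠ z) hx₁move)
  have hxm : ∀ z, c z ≠ z → x z = x₁ z := by
    intro z hz
    exact ofSubtype_apply_of_mem (p := fun z => c z ≠ z) _ hz
  have hxn : ∀ z, c z = z → x z = z := by
    intro z hz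
    exact ofSubtype_apply_of_not_mem (p := fun z => c z ≠ z) _ (by simpa using hz)
  refine ⟨x, ?_, ?_, hxn⟩
  · rw [hxm p hp, hx₁p]
  · ext z
    rw [Perm.mul_apply, Perm.mul_apply]
    by_cases hz : c z = z
    · rw [hz, hxn z hz, Perm.eq_inv_iff_eq, hz]
    · have hcz : c (c z) ≠ c z := fun h => hz (c.injective h)
      rw [hxm _ hcz, hxm _ hz]
      have := congrArg (fun f : Perm α => f z) hx₁c
      simpa [Perm.mul_apply] using this

theorem exists_reflection {c : Perm α} (hc : c.IsCycle) :
    ∃ x y : Perm α, x * y = c ∧ x * x = 1 ∧ y * y = 1 ∧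
      x.support ⊆ c.support ∧ y.support ⊆ c.support ∧
      (∃ a, a ∈ y.support ∧ a ∉ x.support) ∧
      (sign c = 1 → #x.support = #y.support) ∧
      (sign c = -1 → #y.support = #x.support + 2) := by
  obtain ⟨p, hp, -⟩ := id hc
  obtain ⟨x, hxp, hxc, hxf⟩ := exists_inverting hc hp
  have hsemi : SemiconjBy x c c⁻¹ := hxc
  have hxi : ∀ i : ℤ, x * c ^ i = c ^ (-i) * x := by
    intro i
    have := (hsemi.zpow_right i).eq
    rwa [inv_zpow'] at this
  have hxpt : ∀ i : ℤ, x ((c ^ i) p) = (c ^ (-i)) p := by
    intro i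
    have := congrArg (fun f : Perm α => f p) (hxi i)
    simpa [Perm.mul_apply, hxp] using this
  have hmem : ∀ z, c z ≠ z → ∃ i : ℤ, z = (c ^ i) p := by
    intro z hz
    obtain ⟨i, hi⟩ := hc.exists_zpow_eq hp hz
    exact ⟨i, hi.symm⟩
  have hxx : x * x = 1 := by
    ext z
    rw [Perm.mul_apply, Perm.one_apply]
    by_cases hz : c z = z
    · rw [hxf z hz, hxf z hz]
    · obtain ⟨i, rfl⟩ := hmem z hz
      rw [hxpt, hxpt, neg_neg]
  have hyy : (x * c) * (x * c) = 1 := by
    calc (x * c) * (x * c) = x * (c * x) * c := by group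
      _ = x * (x * c⁻¹) * c := by
        congr 2
        have : x * c⁻¹ = c * x := by
          have h1 : x⁻¹ = x := inv_eq_of_mul_eq_one_left hxx
          calc x * c⁻¹ = c * (c⁻¹ * x) * c⁻¹ := by group
            _ = c * (x * c) * c⁻¹ := by rw [hxc]
            _ = c * x := by group
        exact this.symm
      _ = 1 := by
        rw [← mul_assoc, hxx]; group
  have hzpowfix : ∀ i : ℤ, (c ^ i) p = p ↔ (orderOf c : ℤ) ∣ i := by
    intro i
    rw [orderOf_dvd_iff_zpow_eq_one]
    constructor
    · intro h
      rcases Int.eq_nat_or_neg i with ⟨n, rfl | rfl⟩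
      · rw [zpow_natCast] at h ⊢
        exact hc.pow_eq_one_iff.2 ⟨p, hp, h⟩
      · rw [zpow_neg, zpow_natCast] at h ⊢
        rw [inv_eq_one]
        have h' : (c ^ n) p = p := by
          have := congrArg (c ^ n) h
          simpa using this.symm
        exact hc.pow_eq_one_iff.2 ⟨p, hp, h'⟩
    · intro h
      rw [h]; rfl
  have hfixx : ∀ i : ℤ, x ((c ^ i) p) = (c ^ i) p ↔ (orderOf c : ℤ) ∣ 2 * i := by
    intro i
    rw [hxpt, ← hzpowfix]
    have : (c ^ (2 * i)) p = (c ^ i) ((c ^ i) p) := by
      rw [← Perm.mul_apply, ← zpow_add, two_mul]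
    rw [this]
    constructor
    · intro h
      rw [← h, ← Perm.mul_apply, ← zpow_add]; simp
    · intro h
      have := congrArg (c ^ (-i)) h
      rw [← Perm.mul_apply, ← zpow_add] at this
      simpa using this.symm
  have hyp : ∀ i : ℤ, (x * c) ((c ^ i) p) = (c ^ (-i - 1)) p := by
    intro i
    rw [Perm.mul_apply, ← Perm.mul_apply c, ← zpow_one_add, hxpt]
    congr 2
    ring
  have hfixy : ∀ i : ℤ, (x * c) ((c ^ i) p) = (c ^ i) p ↔ (orderOf c : ℤ) ∣ 2 * i + 1 := by
    intro i
    rw [hyp, ← hzpowfix]
    have : (c ^ (2 * i + 1)) p = (c ^ (i + 1)) ((c ^ i) p) := by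
      rw [← Perm.mul_apply, ← zpow_add]
      congr 2
      ring
    rw [this]
    constructor
    · intro h
      rw [← h, ← Perm.mul_apply, ← zpow_add]
      have : i + 1 + (-i - 1) = 0 := by ring
      rw [this]; rfl
    · intro h
      have := congrArg (c ^ (-i - 1)) h
      rw [← Perm.mul_apply, ← zpow_add] at this
      have e : -i - 1 + (i + 1) = 0 := by ring
      rw [e] at this
      exact this.symm
  have hsx : x.support ⊆ c.support := by
    intro z hz
    rw [mem_support] at hz ⊢
    exact fun h => hz (hxf z h)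
  have hsy : (x * c).support ⊆ c.support := by
    intro z hz
    rw [mem_support] at hz ⊢
    intro h
    apply hz
    rw [Perm.mul_apply, h, hxf z h]
  have hcard : orderOf c = #c.support := hc.orderOf
  refine ⟨x, x * c, ?_, hxx, hyy, hsx, hsy, ⟨p, ?_, ?_⟩, ?_, ?_⟩
  · rw [← mul_assoc, hxx, one_mul]
  · rw [mem_support, Perm.mul_apply]
    intro h
    have h3 := hxpt 1
    rw [zpow_one, h, zpow_neg_one] at h3
    apply hp
    have h4 : c⁻¹ p = p := h3.symm
    rw [Perm.inv_eq_iff_eq] at h4
    exact h4.symm
  · rw [mem_support, not_not]; exact hxp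
  · intro hs
    -- the odd case: conjugate
    rw [hc.sign] at hs
    have hodd : Odd #c.support := by
      by_contra h
      rw [Nat.not_odd_iff_even] at h
      rw [h.neg_one_pow] at hs
      exact absurd hs (by decide)
    obtain ⟨m, hm⟩ := hodd
    have hcm : c ^ (2 * m + 1 : ℕ) = 1 := by
      rw [← hm, ← hcard]; exact pow_orderOf_eq_one c
    have hconj : (c ^ (m : ℤ)) * x * (c ^ (m : ℤ))⁻¹ = x * c := by
      rw [← zpow_neg, mul_assoc, hxi (-(m : ℤ)), neg_neg, ← mul_assoc, ← zpow_add]
      have e1 : c ^ ((m : ℤ) + m) = c⁻¹ := by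
        rw [eq_inv_iff_mul_eq_one, ← zpow_add_one]
        have : (m : ℤ) + m + 1 = ((2 * m + 1 : ℕ) : ℤ) := by push_cast; ring
        rw [this, zpow_natCast, hcm]
      rw [e1, hxc]
    rw [← hconj]
    exact (card_support_conj).symm
  · intro hs
    rw [hc.sign] at hs
    have heven : Even #c.support := by
      by_contra h
      rw [Nat.not_even_iff_odd] at h
      rw [h.neg_one_pow] at hs
      exact absurd hs (by decide)
    obtain ⟨m, hm⟩ := heven
    have hm' : #c.support = 2 * m := by omega
    have hordz : (orderOf c : ℤ) = 2 * (m : ℤ) := by rw [hcard, hm']; push_cast; ring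
    -- `y` has no fixed points on the support
    have hsy' : (x * c).support = c.support := by
      apply Subset.antisymm hsy
      intro z hz
      rw [mem_support] at hz ⊢
      obtain ⟨i, rfl⟩ := hmem z hz
      intro h
      have := (hfixy i).1 h
      rw [hordz] at this
      obtain ⟨t, ht⟩ := this
      have : (2 : ℤ) * i + 1 = 2 * (m * t) := by rw [ht]; ring
      omega
    have hmpos : 0 < m := by
      have : 2 ≤ #c.support := by
        have := hc.two_le_card_support
        exact this
      omega
    have hne : (c ^ (m : ℤ)) p ≠ p := by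
      intro h
      have := (hzpowfix _).1 h
      rw [hordz] at this
      have h2 : 2 * (m : ℤ) ≤ m := Int.le_of_dvd (by omega) this
      omega
    have hsx' : x.support = (c.support.erase p).erase ((c ^ (m : ℤ)) p) := by
      ext z
      simp only [mem_erase]
      constructor
      · intro hz
        have hzc := hsx hz
        refine ⟨?_, ?_, hzc⟩
        · rintro rfl
          rw [mem_support] at hz
          apply hz
          rw [hfixx, hordz]
        · rintro rfl
          rw [mem_support] at hz
          exact hz hxp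
      · rintro ⟨h1, h2, h3⟩
        rw [mem_support] at h3 ⊢
        obtain ⟨i, rfl⟩ := hmem z h3
        intro h
        have hd := (hfixx i).1 h
        rw [hordz] at hd
        obtain ⟨t, ht⟩ := hd
        have hi : i = m * t := by
          have : (2 : ℤ) * i = 2 * (m * t) := by rw [ht]; ring
          omega
        rcases Int.even_or_odd' t with ⟨s, rfl | rfl⟩
        · apply h2
          rw [(hzpowfix i).2]
          rw [hordz, hi]
          exact ⟨s, by ring⟩
        · apply h1
          have hdiv : (orderOf c : ℤ) ∣ i - m := by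
            rw [hordz, hi]
            exact ⟨s, by ring⟩
          have := (hzpowfix (i - m)).2 hdiv
          have e : (c ^ i) p = (c ^ (m : ℤ)) ((c ^ (i - m)) p) := by
            rw [← Perm.mul_apply, ← zpow_add]
            congr 2
            ring
          rw [e, this]
    have hm1 : (c ^ (m : ℤ)) p ∈ c.support.erase p := by
      refine mem_erase.2 ⟨hne, ?_⟩
      rw [mem_support]
      intro h
      have h2 : c ((c ^ (m : ℤ)) p) = (c ^ (m : ℤ)) (c p) := by
        rw [← Perm.mul_apply, ← Perm.mul_apply]
        congr 1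
        exact (Commute.refl c).zpow_right _ |>.eq
      rw [h2] at h
      exact hp ((c ^ (m : ℤ)).injective h)
    have hp1 : p ∈ c.support := mem_support.2 hp
    rw [hsy', hsx', card_erase_of_mem hm1, card_erase_of_mem hp1]
    have : 2 ≤ #c.support := hc.two_le_card_support
    omega

end Cfsg.Agent.Lib.Ore2An.Refl
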